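import Cfsg.Agent.Char.FullyRam
import Mathlib.GroupTheory.FiniteAbelian.Duality

/-!
# Fully ramified characters: an invariant constituent and a commutator lemma
-/

set_option autoImplicit false

open Cfsg Cfsg.Lib.Char

namespace Cfsg.Lib.Gag

theorem exists_inertia {G : Type*} [Group G] [Finite G] {S M P : Subgroup G}
    [S.Normal] [M.Normal] [Fintype S] (hSP : S ≤ P)
    (hcop : (S.relIndex M).Coprime (S.relIndex P)) {f : G → ℂ} (hf : IsClassFunction G f)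
    (hv : ∀ g, g ∉ S → f g = 0) {η : P → ℂ} (hη : IsIrrCharacter P η) {m : ℂ} (hm : m ≠ 0)
    (hfη : ∀ x : P, f x = m * η x) :
    ∃ σ : S → ℂ, IsIrrCharacter S σ ∧ classInner (fun n : S => η ⟨n, hSP n.2⟩) σ ≠ 0 ∧
      M ≤ inertia S σ ∧ (inertia S σ).index ∣ S.relIndex P := by
  have := Fintype.ofFinite P
  have := Fintype.ofFinite (S.subgroupOf P)
  have hres : (fun n : S => f n) = m • fun n : S => η ⟨n, hSP n.2⟩ :=
    funext fun n => hfη ⟨n, hSP n.2⟩
  have hiff : ∀ τ : S → ℂ, classInner (fun n : S => f n) τ ≠ 0 ↔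
      classInner (fun n : S => η ⟨n, hSP n.2⟩) τ ≠ 0 := fun τ => by
    rw [hres, classInner_smul_left, mul_ne_zero_iff, and_iff_right hm]
  obtain ⟨σ, hσ, hne⟩ := (hη.isCharacter.res_le hSP).isClassFunction.exists_irr_classInner_ne_zero
    (fun h0 => hη.apply_one_ne_zero (congrFun h0 1))
  obtain ⟨e, he⟩ := (hη.isCharacter.res_le hSP).exists_nat_classInner hσ.isCharacter
  have he0 : e ≠ 0 := by rintro rfl; exact hne (by simpa using he)
  have hvη : ∀ g : P, g ∉ S.subgroupOf P → η g = 0 := fun g hg =>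
    (mul_eq_zero.1 ((hfη g).symm.trans (hv g hg))).resolve_left hm
  set I := inertia S σ with hI
  have hSI : S ≤ I := le_inertia hσ.isClassFunction
  have hIP : I.index = I.relIndex P := by
    have h1 := Cfsg.Lib.Solv.card_mul_card_inf_of_forall_mul (H := I) (K := P) fun g => by
      obtain ⟨t, ht, h⟩ := exists_conjChar_eq_of_lies_over_le hSP hη hσ (hσ.conjChar g) hne
        ((hiff _).1 (by rw [classInner_res_conjChar hf]; exact (hiff _).2 hne))
      exact ⟨g * t⁻¹, conjChar_eq_iff.1 h.symm, t, ht, by simp⟩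
    have h2 := ((I ⊓ P).subgroupOf P).card_mul_index
    rw [Nat.card_congr (Subgroup.subgroupOfEquivOfLe inf_le_right).toEquiv] at h2
    rw [← I.card_mul_index, mul_assoc, ← h2] at h1
    have h3 := Nat.eq_of_mul_eq_mul_left Nat.card_pos h1
    rw [mul_comm] at h3
    rw [Nat.eq_of_mul_eq_mul_left Nat.card_pos h3, ← Subgroup.inf_relIndex_right]
    rfl
  have h1 : e ^ 2 * I.index = S.relIndex P := by
    have := sq_mul_index_inertia_of_vanish hη hvη (hσ.subgroupOf hSP) he0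
      (by rw [classInner_res_subgroupOf hSP, he])
    rwa [inertia_subgroupOf σ hSP, ← hI, ← Subgroup.relIndex, ← hIP] at this
  refine ⟨σ, hσ, hne, ?_, ⟨e ^ 2, by rw [← h1, mul_comm]⟩⟩
  rw [← Subgroup.relIndex_eq_one]
  refine Nat.eq_one_of_dvd_coprimes hcop (Subgroup.relIndex_dvd_of_le_left M hSI)
    ((relIndex_dvd_index_of_normal_right' I M).trans ⟨e ^ 2, by rw [← h1, mul_comm]⟩)

/-- The commutator lemma. -/
theorem comm_mem {L : Type*} [Group L] [Finite L] {S X P : Subgroup L} [hS : S.Normal]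
    [hX : X.Normal] [Fintype S] (hSX : S ≤ X) (hXP : X ≤ P) (hcyc : IsCyclic (X ⧸ S.subgroupOf X))
    {σ : S → ℂ} (hσ : IsIrrCharacter S σ)
    (hinv : ∀ (g : L) (s : S), σ ⟨g * s * g⁻¹, hS.conj_mem s s.2 g⟩ = σ s)
    {η : P → ℂ} (hη : IsIrrCharacter P η) (hv : ∀ g : P, (g : L) ∉ S → η g = 0)
    (hover : classInner (fun s : S => η ⟨s, hXP (hSX s.2)⟩) σ ≠ 0)
    (hXP' : ∀ x ∈ X, ∀ y ∈ P, y * x * y⁻¹ * x⁻¹ ∈ S) {n : L}
    (hdec : ∀ y ∈ P, ∃ x ∈ X, ∃ y', y = x * y' ∧ n * y' * n⁻¹ * y'⁻¹ ∈ S) {x : L} (hx : x ∈ X) :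
    n * x * n⁻¹ * x⁻¹ ∈ S := by
  classical
  have := Fintype.ofFinite P
  have := Fintype.ofFinite X
  have := Fintype.ofFinite (S.subgroupOf X)
  have := Fintype.ofFinite (S.subgroupOf P)
  have := Fintype.ofFinite (X.subgroupOf P)
  have hSP : S ≤ P := hSX.trans hXP
  obtain ⟨φ, hφ, hext⟩ := exists_ext_of_isCyclic hcyc (hσ.subgroupOf hSX)
    (fun g s => hinv (g : L) ⟨((s : X) : L), s.2⟩)
  have hext' : ∀ (s : L) (hs : s ∈ S), φ ⟨s, hSX hs⟩ = σ ⟨s, hs⟩ := fun s hs => hext ⟨⟨s, hSX hs⟩, hs⟩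
  -- every irreducible character of `X` extending `σ` lies under `η`
  have under : ∀ ψ : X → ℂ, IsIrrCharacter X ψ → (∀ (s : L) (hs : s ∈ S), ψ ⟨s, hSX hs⟩ = σ ⟨s, hs⟩) →
      classInner (fun u : X => η ⟨u, hXP u.2⟩) ψ ≠ 0 := by
    intro ψ hψ hψσ
    obtain ⟨η', hη', h'⟩ := exists_irr_over (hψ.subgroupOf hXP)
    have e : η = η' := by
      refine eq_of_vanish_of_lies_over (S := S.subgroupOf P) hη hv hη' (hσ.subgroupOf hSP)
        (by rwa [classInner_res_subgroupOf hSP]) ?_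
      refine lies_over_trans (N := S.subgroupOf P) (T := X.subgroupOf P)
        (Subgroup.comap_mono hSX) hη'.isCharacter (hψ.subgroupOf hXP)
        (hσ.subgroupOf hSP).isCharacter h' ?_
      have : (fun s : S.subgroupOf P => ψ ⟨((s : P) : L), hSX s.2⟩) =
          fun s : S.subgroupOf P => σ ⟨((s : P) : L), s.2⟩ := funext fun s => hψσ _ s.2
      erw [this, (hσ.subgroupOf hSP).classInner_self]
      exact one_ne_zero
    rw [← classInner_res_subgroupOf hXP, e]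
    exact h'
  let _ : CommGroup (X ⧸ S.subgroupOf X) := IsCyclic.commGroup
  have hab : commutator X ≤ S.subgroupOf X := by
    rw [commutator_def, Subgroup.commutator_le]
    intro a _ b _
    rw [← QuotientGroup.eq_one_iff, commutatorElement_def]
    simp only [QuotientGroup.mk_mul, QuotientGroup.mk_inv]
    rw [mul_comm (a : X ⧸ S.subgroupOf X) b]
    group
  by_contra hn
  have hnx : n * x * n⁻¹ ∈ X := hX.conj_mem x hx n
  have hne : ((⟨n * x * n⁻¹, hnx⟩ * ⟨x, hx⟩⁻¹ : X) : X ⧸ S.subgroupOf X) ≠ 1 := fun h =>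
    hn ((QuotientGroup.eq_one_iff (N := S.subgroupOf X) _).1 h)
  obtain ⟨l, hl⟩ := CommGroup.exists_apply_ne_one_of_hasEnoughRootsOfUnity _ ℂ hne
  let lam : X →* ℂˣ := l.comp (QuotientGroup.mk' _)
  have hlam : ∀ (s : X), (s : L) ∈ S → lam s = 1 := fun s hs => by
    change l (s : X ⧸ S.subgroupOf X) = 1
    rw [(QuotientGroup.eq_one_iff s).2 hs, map_one]
  obtain ⟨y, hy, hyφ⟩ := exists_conjChar_eq_of_lies_over_le hXP hη hφ (hφ.mul_monoidHom lam)
    (under φ hφ hext') (under _ (hφ.mul_monoidHom lam) fun s hs => by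
      simp [hlam ⟨s, hSX hs⟩ hs, hext' s hs])
  obtain ⟨x₀, hx₀, y', rfl, hny⟩ := hdec y hy
  have hy' : y' ∈ P := by simpa using P.mul_mem (P.inv_mem (hXP hx₀)) hy
  have hcl : ∀ (a : L) (ha : a ∈ X) (u : X), φ ⟨a * u * a⁻¹, hX.conj_mem u u.2 a⟩ = φ u :=
    fun a ha u => hφ.isClassFunction.apply_conj u ⟨a, ha⟩
  have h1 : ∀ u : X, φ ⟨y' * u * y'⁻¹, hX.conj_mem u u.2 y'⟩ = φ u * lam u := fun u => by
    have := congrFun hyφ u
    rw [conjChar_apply] at this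
    rw [← hcl x₀ hx₀ ⟨y' * u * y'⁻¹, hX.conj_mem u u.2 y'⟩]
    refine Eq.trans (congrArg φ (Subtype.ext ?_)) this
    simp [mul_assoc]
  have hone : classInner (fun s : S.subgroupOf X => φ s)
      (fun s : S.subgroupOf X => σ ⟨((s : X) : L), s.2⟩) ≠ 0 := by
    rw [funext hext, (hσ.subgroupOf hSX).classInner_self]
    exact one_ne_zero
  obtain ⟨mu, hmu, hmuφ⟩ := exists_monoidHom_mul_of_lies_over hab hφ (hφ.conjChar n)
    (hσ.subgroupOf hSX) hone (by
      have : (fun s : S.subgroupOf X => conjChar X φ n s) =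
          fun s : S.subgroupOf X => σ ⟨((s : X) : L), s.2⟩ := funext fun s => by
        have hs : ((s : X) : L) ∈ S := s.2
        exact (hext' _ (hS.conj_mem _ hs n)).trans (hinv n ⟨_, hs⟩)
      rw [this, (hσ.subgroupOf hSX).classInner_self]
      exact one_ne_zero)
  have h2 : ∀ u : X, φ ⟨n * u * n⁻¹, hX.conj_mem u u.2 n⟩ = φ u * mu u := fun u =>
    congrFun hmuφ u
  obtain ⟨s, hs, hu⟩ := exists_apply_coset_ne_zero_of_res_irr (N := S.subgroupOf X) hφ.isCharacter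
    (by rw [funext hext]; exact hσ.subgroupOf hSX) ⟨x, hx⟩
  set u : X := s * ⟨x, hx⟩ with hudef
  have h3 : mu ⟨y' * u * y'⁻¹, hX.conj_mem u u.2 y'⟩ = mu u := by
    have := hmu (⟨y' * u * y'⁻¹, hX.conj_mem u u.2 y'⟩ * u⁻¹) (hXP' u u.2 y' hy')
    rwa [map_mul, map_inv, mul_inv_eq_one] at this
  have h4 := h2 ⟨y' * u * y'⁻¹, hX.conj_mem u u.2 y'⟩
  rw [h1, h3] at h4
  have h5 := h1 ⟨n * u * n⁻¹, hX.conj_mem u u.2 n⟩
  rw [h2] at h5
  have h6 := hcl _ (hSX hny) ⟨y' * (n * u * n⁻¹) * y'⁻¹,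
    hX.conj_mem _ (hX.conj_mem u u.2 n) y'⟩
  have h7 : φ u * lam u * mu u = φ u * mu u * lam ⟨n * u * n⁻¹, hX.conj_mem u u.2 n⟩ := by
    rw [← h4, ← h5, ← h6]
    refine congrArg φ (Subtype.ext ?_)
    simp only
    group
  have h8 : lam u = lam ⟨n * u * n⁻¹, hX.conj_mem u u.2 n⟩ := by
    rw [mul_right_comm] at h7
    exact Units.ext (mul_left_cancel₀ (mul_ne_zero hu (mu u).ne_zero) h7)
  have h9 : (⟨n * u * n⁻¹, hX.conj_mem u u.2 n⟩ : X) =
      ⟨n * s * n⁻¹, hX.conj_mem s s.2 n⟩ * ⟨n * x * n⁻¹, hnx⟩ := by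
    refine Subtype.ext ?_
    simp only [hudef, Subgroup.coe_mul]
    group
  rw [h9, hudef, map_mul, map_mul, hlam s hs,
    hlam ⟨n * s * n⁻¹, hX.conj_mem s s.2 n⟩ (hS.conj_mem _ hs n), one_mul, one_mul] at h8
  refine hl ?_
  change lam (⟨n * x * n⁻¹, hnx⟩ * ⟨x, hx⟩⁻¹) = 1
  rw [map_mul, map_inv, ← h8, mul_inv_cancel]

end Cfsg.Lib.Gag
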