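import Cfsg.Agent.Gag.Char
import Cfsg.Agent.S4565

/-!
# Fully ramified characters: the group theoretic consequences for quotients of `H / Z`
-/

set_option autoImplicit false

open Cfsg Cfsg.Lib.Char

namespace Cfsg.Lib.Gag

/-- `χ` is fully ramified over `Z`. -/
structure FR {H : Type*} [Group H] (Z : Subgroup H) (χ : H → ℂ) (θ : Z → ℂ) (e : ℕ) : Prop where
  irr : IsIrrCharacter H χ
  irrθ : IsIrrCharacter Z θ
  sq : e ^ 2 = Z.index
  res : ∀ z : Z, χ z = e * θ z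

/-- What is used of the quotients of `H / Z`. -/
structure Data (G : Type*) [Group G] : Prop where
  small : ∀ (p : ℕ) [Fact p.Prime] (P : Sylow p G),
    (¬ ∀ a ∈ (P : Subgroup G), ∀ b ∈ (P : Subgroup G), a * b = b * a) → Nat.card P ∣ p ^ 4
  nosc : ∀ (p : ℕ) [Fact p.Prime] (P : Sylow p G),
    (¬ ∀ a ∈ (P : Subgroup G), ∀ b ∈ (P : Subgroup G), a * b = b * a) → Nat.card P = p ^ 4 →
    ∀ w ∈ (P : Subgroup G), ∃ c ∈ (P : Subgroup G), c * w = w * c ∧ c ∉ Subgroup.zpowers w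
  kl : ∀ (p : ℕ) [Fact p.Prime] (P : Sylow p G),
    (∀ (U : Subgroup G) (j : ℕ), U.index = p ^ j → U = ⊤) → ∀ x ∈ (P : Subgroup G),
    (∀ y ∈ (P : Subgroup G), y * x = x * y) → ∀ n : G, n * x * n⁻¹ ∈ Subgroup.zpowers x →
    (∀ y ∈ (P : Subgroup G), ∃ a ∈ Subgroup.zpowers x, ∃ c, y = a * c ∧ n * c = c * n) →
    n * x = x * n

variable {H : Type*} [Group H] [Finite H] {Z : Subgroup H} [Z.Normal] {χ : H → ℂ} {θ : Z → ℂ}
  {e : ℕ} {p : ℕ} [hp : Fact p.Prime]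

theorem relIndex_pow (Z : Subgroup H) [Z.Normal] (P₀ : Sylow p H) :
    ∃ a, Z.relIndex ((P₀ : Subgroup H) ⊔ Z) = p ^ a := by
  obtain ⟨n, hn⟩ := IsPGroup.iff_card.1 P₀.isPGroup'
  have : Z.relIndex ((P₀ : Subgroup H) ⊔ Z) ∣ p ^ n := by
    rw [Subgroup.relIndex_sup_right, ← hn]
    exact Subgroup.relIndex_dvd_card _ _
  obtain ⟨a, -, ha⟩ := (Nat.dvd_prime_pow hp.out).1 this
  exact ⟨a, ha⟩

theorem not_dvd_index_sup (Z : Subgroup H) (P₀ : Sylow p H) :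
    ¬ p ∣ ((P₀ : Subgroup H) ⊔ Z).index := fun h =>
  P₀.not_dvd_index (h.trans (Subgroup.index_dvd_of_le le_sup_left))

omit [Z.Normal] in
theorem FR.vanish (h : FR Z χ θ e) (g : H) (hg : g ∉ Z) : χ g = 0 :=
  (vanish_iff_sq_eq_index h.irr h.irrθ (funext h.res)).2 h.sq g hg

/-- DeMeyer-Janusz. -/
theorem FR.sylow (h : FR Z χ θ e) (P₀ : Sylow p H) {P : Subgroup H} (hP : P = (P₀ : Subgroup H) ⊔ Z) :
    ∃ (η : P → ℂ) (m e' : ℕ), m ≠ 0 ∧
      FR (Z.subgroupOf P) η (fun z => θ ⟨((z : P) : H), z.2⟩) e' ∧ ∀ g : P, χ g = m * η g := by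
  have hZP : Z ≤ P := hP ▸ le_sup_right
  obtain ⟨a, ha⟩ := relIndex_pow Z P₀
  rw [← hP] at ha
  have he : e ^ 2 = (Z.subgroupOf P).index * P.index :=
    h.sq.trans (Subgroup.relIndex_mul_index hZP).symm
  obtain ⟨η, m, hη, hm, hχη⟩ := exists_eq_mul_irr_of_vanish (S := Z.subgroupOf P)
    (h.irr.isCharacter.res P) (fun g hg => h.vanish g hg) (h.irrθ.subgroupOf hZP) (e := e)
    (c := P.index) (fun n => h.res ⟨((n : P) : H), n.2⟩) he (by
      change (Z.relIndex P).Coprime _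
      rw [ha]
      exact ((Nat.Prime.coprime_iff_not_dvd hp.out).2 (hP ▸ not_dvd_index_sup Z P₀)).pow_left a)
    Subgroup.index_ne_zero_of_finite
  have hm0 : m ≠ 0 := by
    rintro rfl
    exact Subgroup.index_ne_zero_of_finite (H := P) (by simpa using hm.symm)
  obtain ⟨e', rfl⟩ : m ∣ e := (Nat.pow_dvd_pow_iff two_ne_zero).1 ⟨_, by rw [he, hm, mul_comm]⟩
  refine ⟨η, m, e', hm0, ⟨hη, h.irrθ.subgroupOf hZP, ?_, fun z => ?_⟩, hχη⟩
  · rw [← hm, mul_pow, mul_comm] at he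
    exact Nat.eq_of_mul_eq_mul_right (by positivity) he
  · have h1 := (hχη z).symm.trans (h.res ⟨((z : P) : H), z.2⟩)
    rw [Nat.cast_mul, mul_assoc] at h1
    exact mul_left_cancel₀ (Nat.cast_ne_zero.2 hm0) h1

variable {G : Type*} [Group G] {f : H →* G}

theorem FR.exists_inv (h : FR Z χ θ e) (hf : Function.Surjective f) (hZK : Z ≤ f.ker)
    (P₀ : Sylow p H) (hU : ∀ (U : Subgroup G) (j : ℕ), U.index = p ^ j → U = ⊤)
    {P : Subgroup H} (hP : P = (P₀ : Subgroup H) ⊔ Z) [Fintype (P ⊓ f.ker : Subgroup H)] :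
    ∃ (η : P → ℂ) (σ : (P ⊓ f.ker : Subgroup H) → ℂ),
      IsIrrCharacter _ η ∧ IsIrrCharacter _ σ ∧ (∀ g : P, (g : H) ∉ Z → η g = 0) ∧
      classInner (fun s : (P ⊓ f.ker : Subgroup H) => η ⟨s, s.2.1⟩) σ ≠ 0 ∧
      ∀ g ∈ Subgroup.normalizer ((P ⊓ f.ker : Subgroup H) : Set H),
        ∀ s t : (P ⊓ f.ker : Subgroup H), (t : H) = g * s * g⁻¹ → σ t = σ s := by
  classical
  obtain ⟨η, m, e', hm0, hη, hχη⟩ := h.sylow P₀ hP
  obtain ⟨a, ha⟩ := relIndex_pow Z P₀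
  have hpP := not_dvd_index_sup Z P₀
  rw [← hP] at ha hpP
  let K := f.ker
  let S : Subgroup H := P ⊓ K
  have hS : S = P ⊓ K := rfl
  let N : Subgroup H := Subgroup.normalizer (S : Set H)
  have hN : N = Subgroup.normalizer (S : Set H) := rfl
  have hZP : Z ≤ P := hP ▸ le_sup_right
  have hZS : Z ≤ S := le_inf hZP hZK
  have hPN : P ≤ N := by
    refine le_trans ?_ Subgroup.inf_normalizer_le_normalizer_inf
    exact le_inf Subgroup.le_normalizer (by rw [Subgroup.normalizer_eq_top]; exact le_top)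
  have hSN : S ≤ N := Subgroup.le_normalizer
  have hcopP : ∀ {x y : ℕ}, x ∣ P.index → y ∣ Z.relIndex P → x.Coprime y := fun hx hy =>
    ((((Nat.Prime.coprime_iff_not_dvd hp.out).2 hpP).symm.pow_right a).coprime_dvd_left
      hx).coprime_dvd_right (ha ▸ hy)
  have hSP : S.relIndex P ∣ Z.relIndex P := Subgroup.relIndex_dvd_of_le_left P hZS
  have hfr : N ⊔ K = ⊤ := by
    have h1 : Subgroup.normalizer (((P₀ : Subgroup H) ⊓ K : Subgroup H) : Set H) ⊔ K = ⊤ :=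
      Cfsg.Lib.Solv.normalizer_sup_eq_top_of_relIndex (p := p) inf_le_right
        (P₀.isPGroup'.to_inf_left) (by
          rw [Subgroup.inf_relIndex_right]
          exact fun h => P₀.not_dvd_index (h.trans (relIndex_dvd_index_of_normal_right' _ _)))
    have h2 : S = ((P₀ : Subgroup H) ⊓ K) ⊔ Z := by
      rw [hS, hP, sup_comm, Cfsg.Lib.Solv.sup_inf_assoc_of_le_normalizer
        (by rw [Subgroup.normalizer_eq_top]; exact le_top) hZK, sup_comm]
    rw [eq_top_iff, ← h1]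
    refine sup_le_sup_right ?_ K
    rw [hN, h2]
    exact Subgroup.normalizer_le_normalizer_sup_normal
  have : (S.subgroupOf N).Normal := Subgroup.normal_in_normalizer
  have := Fintype.ofFinite (S.subgroupOf N)
  have hrel : (S.subgroupOf N).relIndex (P.subgroupOf N) = S.relIndex P :=
    Subgroup.relIndex_subgroupOf hPN
  obtain ⟨σ, hσ, hne, hMI, h1⟩ := exists_inertia (S := S.subgroupOf N)
    (M := K.subgroupOf N) (P := P.subgroupOf N) (f := fun x : N => χ x) (m := m)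
    (Subgroup.comap_mono inf_le_left) (by
      rw [hrel, ← Subgroup.inf_subgroupOf_right K, Subgroup.relIndex_subgroupOf inf_le_right]
      refine hcopP ?_ hSP
      refine (Dvd.intro _ (Subgroup.relIndex_mul_relIndex S (K ⊓ N) K (le_inf inf_le_right hSN)
        inf_le_left)).trans ?_
      rw [hS, Subgroup.inf_relIndex_right]
      exact relIndex_dvd_index_of_normal_right' _ _)
    (h.irr.isClassFunction.res N) (fun g hg => h.vanish g fun h => hg (hZS h))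
    (hη.irr.subgroupOf hPN) (Nat.cast_ne_zero.mpr hm0) (fun x => hχη ⟨((x : N) : H), x.2⟩)
  let π : N →* G := f.comp N.subtype
  have hπ : Function.Surjective π := by
    rw [← MonoidHom.range_eq_top, ← MonoidHom.map_range, Subgroup.range_subtype,
      ← sup_bot_eq (N.map _), ← (Subgroup.map_eq_bot_iff K).2 le_rfl,
      ← Subgroup.map_sup, hfr, ← MonoidHom.range_eq_map, MonoidHom.range_eq_top.2 hf]
  have hidx : ((inertia _ σ).map π).index = (inertia _ σ).index :=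
    Subgroup.index_map_eq _ hπ fun x hx => hMI hx
  rw [hrel] at h1
  obtain ⟨j, -, hj⟩ := (Nat.dvd_prime_pow hp.out).1 (ha ▸ h1.trans hSP)
  have hI : inertia _ σ = ⊤ := by
    rw [← Subgroup.index_eq_one, ← hidx, hU _ j (hidx.trans hj), Subgroup.index_top]
  let ε := (Subgroup.subgroupOfEquivOfLe hSN).symm
  refine ⟨η, fun s => σ (ε s), hη.irr, hσ.comp_equiv ε, fun g hg => hη.vanish g hg, ?_,
    fun g hg s t hst => ?_⟩
  · have := classInner_res_subgroupOf hSN (fun x : N => if hx : (x : H) ∈ P then η ⟨x, hx⟩ else 0)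
      (fun s => σ (ε s))
    convert hne using 1
    refine Eq.trans (congrArg₂ classInner (funext fun s => ?_) rfl)
      (this.symm.trans (congrArg₂ classInner (funext fun s => ?_) rfl))
    · have hs : (s : H) ∈ P := s.2.1
      simp only [dif_pos hs]
    · exact dif_pos s.2.1
  · have := mem_inertia'.1 (hI ▸ Subgroup.mem_top (⟨g, hg⟩ : N)) (ε s)
    refine Eq.trans (congrArg σ (Subtype.ext (Subtype.ext ?_))) this
    exact hst

theorem exists_lift_norm (P₀ : Sylow p H) (n₀ : H)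
    (hn : ∀ y ∈ (P₀ : Subgroup H).map f, f n₀ * y * (f n₀)⁻¹ ∈ (P₀ : Subgroup H).map f) :
    ∃ n, f n = f n₀ ∧ n ∈ Subgroup.normalizer ((P₀ : Subgroup H) : Set H) := by
  let A := ((P₀ : Subgroup H).map f).comap f
  have h1 : (P₀ : Subgroup H) ≤ A := Subgroup.le_comap_map _ _
  have h2 : ((n₀ • P₀ : Sylow p H) : Subgroup H) ≤ A := by
    rintro _ ⟨y, hy, rfl⟩
    change f (n₀ * y * n₀⁻¹) ∈ (P₀ : Subgroup H).map f
    rw [map_mul, map_mul, map_inv]
    exact hn _ ⟨y, hy, rfl⟩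
  obtain ⟨a, ha⟩ := MulAction.exists_smul_eq A ((n₀ • P₀).subtype h2) (P₀.subtype h1)
  rw [Sylow.smul_subtype] at ha
  have h3 : ((a : H) * n₀) • P₀ = P₀ := by rw [mul_smul]; exact Sylow.subtype_injective ha
  obtain ⟨u, hu, hua⟩ := a.2
  refine ⟨u⁻¹ * (a * n₀), by rw [map_mul, map_mul, map_inv, hua]; group, ?_⟩
  exact Subgroup.mul_mem _ (Subgroup.inv_mem _ (Subgroup.le_normalizer hu))
    (Sylow.smul_eq_iff_mem_normalizer.1 h3)

theorem FR.kl (h : FR Z χ θ e) (hf : Function.Surjective f) (hZK : Z ≤ f.ker) (P : Sylow p G)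
    (hU : ∀ (U : Subgroup G) (j : ℕ), U.index = p ^ j → U = ⊤) {x : G} (hx : x ∈ (P : Subgroup G))
    (hc : ∀ y ∈ (P : Subgroup G), y * x = x * y) {n : G} (hn : n * x * n⁻¹ ∈ Subgroup.zpowers x)
    (hdec : ∀ y ∈ (P : Subgroup G), ∃ a ∈ Subgroup.zpowers x, ∃ c, y = a * c ∧ n * c = c * n) :
    n * x = x * n := by
  classical
  have := Finite.of_surjective f hf
  obtain ⟨P₀, rfl⟩ := Sylow.mapSurjective_surjective hf p P
  rw [Sylow.coe_mapSurjective] at hx hc hdec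
  obtain ⟨Q, hQ⟩ : ∃ Q : Subgroup H, Q = (P₀ : Subgroup H) ⊔ Z := ⟨_, rfl⟩
  let S : Subgroup H := Q ⊓ f.ker
  have := Fintype.ofFinite S
  obtain ⟨η, σ, hη, hσ, hv, hover, hinv⟩ := h.exists_inv hf hZK P₀ hU hQ
  have hQf : Q.map f = (P₀ : Subgroup H).map f := by
    rw [hQ, Subgroup.map_sup, (Subgroup.map_eq_bot_iff Z).2 hZK, sup_bot_eq]
  rw [← hQf] at hx hc hdec
  have hzp : Subgroup.zpowers x ≤ Q.map f := Subgroup.zpowers_le.2 hx
  have hnz : ∀ a ∈ Subgroup.zpowers x, n * a * n⁻¹ ∈ Subgroup.zpowers x := by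
    rintro _ ⟨k, rfl⟩
    simpa [conj_zpow] using Subgroup.zpow_mem _ hn k
  have hcz : ∀ a ∈ Subgroup.zpowers x, ∀ y ∈ Q.map f, y * a * y⁻¹ = a := by
    rintro _ ⟨k, rfl⟩ y hy
    rw [mul_inv_eq_iff_eq_mul]
    exact (Commute.zpow_right (hc y hy) k).eq
  obtain ⟨n₀, rfl⟩ := hf n
  obtain ⟨n₁, hn₁, hn₁P⟩ := exists_lift_norm (f := f) P₀ n₀ (by
    rw [← hQf]
    intro y hy
    obtain ⟨a, ha, c, rfl, hnc⟩ := hdec y hy
    have e : f n₀ * (a * c) * (f n₀)⁻¹ = f n₀ * a * (f n₀)⁻¹ * a⁻¹ * (a * c) := by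
      have : c * (f n₀)⁻¹ = (f n₀)⁻¹ * c := by
        rw [eq_inv_mul_iff_mul_eq, ← mul_assoc, hnc]; group
      rw [mul_assoc (f n₀), mul_assoc a, this]
      group
    rw [e]
    exact Subgroup.mul_mem _ (Subgroup.mul_mem _ (hzp (hnz a ha)) (Subgroup.inv_mem _ (hzp ha))) hy)
  rw [← hn₁] at hn hdec hnz ⊢
  have hn₁Q : n₁ ∈ Subgroup.normalizer (Q : Set H) :=
    hQ ▸ Subgroup.normalizer_le_normalizer_sup_normal hn₁P
  let X : Subgroup H := Q ⊓ (Subgroup.zpowers x).comap f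
  let L : Subgroup H := Subgroup.normalizer (S : Set H) ⊓ Subgroup.normalizer (X : Set H)
  have hSX : S ≤ X := fun s hs => ⟨hs.1, by
    change f s ∈ Subgroup.zpowers x
    rw [show f s = 1 from hs.2]; exact Subgroup.one_mem _⟩
  have hnS : Subgroup.normalizer (Q : Set H) ≤ Subgroup.normalizer (S : Set H) := by
    refine le_trans ?_ Subgroup.inf_normalizer_le_normalizer_inf
    exact le_inf le_rfl (by rw [Subgroup.normalizer_eq_top f.ker]; exact le_top)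
  have hnX : ∀ g ∈ Subgroup.normalizer (Q : Set H),
      (∀ a ∈ Subgroup.zpowers x, f g * a * (f g)⁻¹ ∈ Subgroup.zpowers x) →
      g ∈ Subgroup.normalizer (X : Set H) := fun g hg hg' => by
    refine Subgroup.mem_normalizer_fintype fun u hu => ⟨(Subgroup.mem_normalizer_iff.1 hg u).1 hu.1, ?_⟩
    change f (g * u * g⁻¹) ∈ Subgroup.zpowers x
    rw [map_mul, map_mul, map_inv]
    exact hg' _ hu.2
  have hQL : Q ≤ L := fun g hg => ⟨hnS (Subgroup.le_normalizer hg),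
    hnX g (Subgroup.le_normalizer hg) fun a ha => by rwa [hcz a ha _ ⟨g, hg, rfl⟩]⟩
  have hn₁L : n₁ ∈ L := ⟨hnS hn₁Q, hnX _ hn₁Q hnz⟩
  have hXL : X ≤ L := inf_le_left.trans hQL
  have hSL : S ≤ L := hSX.trans hXL
  have : (S.subgroupOf L).Normal := Subgroup.normal_subgroupOf_of_le_normalizer inf_le_left
  have : (X.subgroupOf L).Normal := Subgroup.normal_subgroupOf_of_le_normalizer inf_le_right
  have := Fintype.ofFinite (S.subgroupOf L)
  obtain ⟨x₀, hx₀, rfl⟩ := hx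
  have key := comm_mem (S := S.subgroupOf L) (X := X.subgroupOf L) (P := Q.subgroupOf L)
    (Subgroup.comap_mono hSX) (Subgroup.comap_mono inf_le_left) ?_ (hσ.subgroupOf hSL)
    (fun g s => hinv g g.2.1 _ _ rfl) (hη.subgroupOf hQL)
    (fun g hg => hv _ fun hz => hg ⟨g.2, hZK hz⟩) ?_ ?_ (n := ⟨n₁, hn₁L⟩) ?_
    (x := ⟨x₀, hQL hx₀⟩) ⟨hx₀, Subgroup.mem_zpowers _⟩
  · have h1 : f (n₁ * x₀ * n₁⁻¹ * x₀⁻¹) = 1 := key.2
    rw [map_mul, map_mul, map_mul, map_inv, map_inv, mul_inv_eq_one, mul_inv_eq_iff_eq_mul] at h1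
    exact h1
  · let π : X.subgroupOf L →* Subgroup.zpowers (f x₀) :=
      ((f.comp L.subtype).comp (X.subgroupOf L).subtype).codRestrict _ fun u => u.2.2
    refine isCyclic_of_injective (QuotientGroup.lift _ π fun u hu => Subtype.ext hu.2) ?_
    rw [injective_iff_map_eq_one]
    intro u hu
    obtain ⟨u, rfl⟩ := QuotientGroup.mk_surjective u
    exact (QuotientGroup.eq_one_iff u).2 ⟨u.2.1, congrArg Subtype.val hu⟩
  · have := classInner_res_subgroupOf hSL (fun x : L => if hx : (x : H) ∈ Q then η ⟨x, hx⟩ else 0) σ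
    convert hover using 1
    refine Eq.trans (congrArg₂ classInner (funext fun s => ?_) rfl)
      (this.trans (congrArg₂ classInner (funext fun s => ?_) rfl))
    · have hs : ((s : L) : H) ∈ Q := s.2.1
      simp only [dif_pos hs]
    · exact dif_pos s.2.1
  · intro u hu y hy
    refine ⟨Q.mul_mem (Q.mul_mem (Q.mul_mem hy hu.1) (Q.inv_mem hy)) (Q.inv_mem hu.1), ?_⟩
    change f (y * u * (y : H)⁻¹ * (u : H)⁻¹) = 1
    rw [map_mul, map_mul, map_mul, map_inv, map_inv, hcz (f u) hu.2 (f y) ⟨y, hy, rfl⟩,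
      mul_inv_cancel]
  · intro y hy
    obtain ⟨a, ha, c, e, hnc⟩ := hdec _ ⟨y, hy, rfl⟩
    obtain ⟨a₀, ha₀, rfl⟩ := hzp ha
    have hy' : a₀⁻¹ * y ∈ Q := Q.mul_mem (Q.inv_mem ha₀) hy
    refine ⟨⟨a₀, hQL ha₀⟩, ⟨ha₀, ha⟩, ⟨a₀⁻¹ * y, hQL hy'⟩, Subtype.ext (by simp),
      Q.mul_mem ((Subgroup.mem_normalizer_iff.1 hn₁Q _).1 hy') (Q.inv_mem hy'), ?_⟩
    change f (n₁ * (a₀⁻¹ * y) * n₁⁻¹ * (a₀⁻¹ * y)⁻¹) = 1
    have e' : f (a₀⁻¹ * y) = c := by rw [map_mul, map_inv, e]; group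
    rw [map_mul, map_mul, map_mul, map_inv, map_inv, e', hnc]
    group

theorem FR.data (h : FR Z χ θ e)
    (hab : ∀ p : ℕ, p.Prime → p ^ 6 ∣ Z.index → ∀ P : Sylow p (H ⧸ Z), IsMulCommutative P)
    (hf : Function.Surjective f) (hZK : Z ≤ f.ker) : Data G := by
  have := Finite.of_surjective f hf
  have key : ∀ (p : ℕ) [Fact p.Prime] (P₀ : Sylow p H),
      (¬ ∀ a ∈ (P₀ : Subgroup H).map f, ∀ b ∈ (P₀ : Subgroup H).map f, a * b = b * a) →
      Z.relIndex ((P₀ : Subgroup H) ⊔ Z) ∣ p ^ 4 := by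
    intro p hp P₀ hna
    obtain ⟨η, m, e', -, hη, -⟩ := h.sylow P₀ rfl
    obtain ⟨a, ha⟩ := relIndex_pow Z P₀
    have h1 : e' ^ 2 = p ^ a := hη.sq.trans ha
    obtain ⟨b, -, rfl⟩ := (Nat.dvd_prime_pow hp.out).1 (h1 ▸ dvd_pow_self e' two_ne_zero)
    rw [← pow_mul] at h1
    have h2 := Nat.pow_right_injective hp.out.two_le h1
    rw [ha]
    refine pow_dvd_pow _ ?_
    by_contra h3
    refine hna ?_
    have h4 := hab p hp.out ((pow_dvd_pow p (by omega : 6 ≤ a)).trans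
      (ha ▸ Dvd.intro _ (Subgroup.relIndex_mul_index le_sup_right)))
      (P₀.mapSurjective (QuotientGroup.mk'_surjective Z))
    rintro _ ⟨a, ha, rfl⟩ _ ⟨b, hb, rfl⟩
    have h5 := congrArg Subtype.val (h4.1.1 ⟨(a : H ⧸ Z), a, ha, rfl⟩ ⟨(b : H ⧸ Z), b, hb, rfl⟩)
    have h6 : ((a * b : H) : H ⧸ Z) = (b * a : H) := h5
    have h7 : f ((a * b)⁻¹ * (b * a)) = 1 := hZK (QuotientGroup.eq.1 h6)
    rwa [map_mul, map_inv, inv_mul_eq_one, map_mul, map_mul] at h7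
  have hcard : ∀ (p : ℕ) (P₀ : Sylow p H), Nat.card ((P₀ : Subgroup H).map f) =
      f.ker.relIndex ((P₀ : Subgroup H) ⊔ Z) := fun p P₀ => by
    rw [Subgroup.relIndex_ker, Subgroup.map_sup, (Subgroup.map_eq_bot_iff Z).2 hZK, sup_bot_eq]
  refine ⟨fun p _ P hna => ?_, fun p hp P hna h4 w hw => ?_,
    fun p _ P hU x hx hc n hn hdec => h.kl hf hZK P hU hx hc hn hdec⟩
  · obtain ⟨P₀, rfl⟩ := Sylow.mapSurjective_surjective hf p P
    refine Dvd.dvd.trans ?_ (key p P₀ hna)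
    exact (hcard p P₀) ▸ Subgroup.relIndex_dvd_of_le_left _ hZK
  · obtain ⟨P₀, rfl⟩ := Sylow.mapSurjective_surjective hf p P
    have h1 := key p P₀ hna
    have h2 : f.ker.relIndex ((P₀ : Subgroup H) ⊔ Z) = p ^ 4 := (hcard p P₀).symm.trans h4
    obtain ⟨Q, hQ⟩ : ∃ Q : Subgroup H, Q = (P₀ : Subgroup H) ⊔ Z := ⟨_, rfl⟩
    rw [← hQ] at h1 h2
    obtain ⟨η, m, e', -, hη, -⟩ := h.sylow P₀ hQ
    have hQf : Q.map f = (P₀ : Subgroup H).map f := by
      rw [hQ, Subgroup.map_sup, (Subgroup.map_eq_bot_iff Z).2 hZK, sup_bot_eq]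
    have h3 : Z.relIndex Q = p ^ 4 :=
      Nat.dvd_antisymm h1 (h2 ▸ Subgroup.relIndex_dvd_of_le_left _ hZK)
    have h5 : f.ker.subgroupOf Q = Z.subgroupOf Q := by
      have hle : Z.subgroupOf Q ≤ f.ker.subgroupOf Q := Subgroup.comap_mono hZK
      have h7 := Subgroup.relIndex_mul_index hle
      rw [show (Z.subgroupOf Q).index = (f.ker.subgroupOf Q).index from h3.trans h2.symm] at h7
      exact le_antisymm (Subgroup.relIndex_eq_one.1 (Nat.eq_of_mul_eq_mul_right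
        (Nat.pos_of_ne_zero Subgroup.index_ne_zero_of_finite) (h7.trans (one_mul _).symm))) hle
    rw [Sylow.coe_mapSurjective, ← hQf] at hw ⊢
    obtain ⟨w₀, hw₀, rfl⟩ := hw
    have h6 := Agent.S4565.result (Z.subgroupOf Q) ⟨η, hη.irr⟩ ⟨⟨_, hη.irrθ⟩, e', hη.sq, hη.res⟩
      (fun h0 => by
        have : Z.relIndex Q = 1 := by rw [Subgroup.relIndex, h0, Subgroup.index_top]
        exact hp.out.one_lt.ne' (Nat.pow_eq_one.1 (h3.symm.trans this) |>.resolve_right (by omega)))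
      (Subgroup.zpowers ((⟨w₀, hw₀⟩ : Q) : Q ⧸ Z.subgroupOf Q)) inferInstance
    by_contra hcon
    push Not at hcon
    refine h6 (le_antisymm (fun c hc => ?_) ?_)
    · obtain ⟨c, rfl⟩ := QuotientGroup.mk_surjective c
      have h7 := Subgroup.mem_centralizer_iff.1 hc _ (Subgroup.mem_zpowers _)
      have h8 : f ((w₀ * c)⁻¹ * (c * w₀)) = 1 := hZK (QuotientGroup.eq (s := Z.subgroupOf Q).1 h7)
      rw [map_mul, map_inv, inv_mul_eq_one, map_mul, map_mul] at h8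
      obtain ⟨k, hk⟩ := hcon _ ⟨c, c.2, rfl⟩ h8.symm
      refine ⟨k, ?_⟩
      change ((⟨w₀, hw₀⟩ ^ k : Q) : Q ⧸ Z.subgroupOf Q) = c
      rw [QuotientGroup.eq, ← h5]
      change f ((w₀ ^ k)⁻¹ * c) = 1
      rw [map_mul, map_inv, map_zpow, inv_mul_eq_one]
      exact hk
    · rintro _ ⟨k, rfl⟩
      rw [Subgroup.mem_centralizer_iff]
      rintro _ ⟨l, rfl⟩
      exact (Commute.zpow_zpow_self _ l k).eq

end Cfsg.Lib.Gag
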