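import Cfsg.Agent.Gag.Data
import Cfsg.Agent.Perm.Socle
import Mathlib.GroupTheory.Transfer

/-!
# A good prime of a simple factor of a minimal normal subgroup contradicts the character data
-/

set_option autoImplicit false

open Cfsg Cfsg.Lib.Perm.Socle Pointwise

namespace Cfsg.Lib.Gag

/-- An odd prime with cyclic Sylow subgroups, dividing `|S|` but not `|Out S|`, such that no proper
subgroup has index a power of it. -/
structure Good (p : ℕ) (S : Type*) [Group S] : Prop where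
  prime : p.Prime
  ne2 : p ≠ 2
  dvd : p ∣ Nat.card S
  cyc : ∀ X : Subgroup S, IsPGroup p X → IsCyclic X
  idx : ∀ (U : Subgroup S) (j : ℕ), U.index = p ^ j → U = ⊤
  out : ∀ (β : MulAut S) (k : ℕ), β ^ p ^ k = 1 → ∃ s, ∀ x, β x = s * x * s⁻¹

theorem Good.of_equiv {p : ℕ} {S S' : Type*} [Group S] [Group S'] (h : Good p S') (e : S ≃* S') :
    Good p S where
  prime := h.prime
  ne2 := h.ne2
  dvd := Nat.card_congr e.toEquiv ▸ h.dvd
  cyc X hX := by
    have := h.cyc _ (hX.map e.toMonoidHom)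
    exact isCyclic_of_surjective _ (X.equivMapOfInjective e.toMonoidHom e.injective).symm.surjective
  idx U j hU := by
    have h1 := h.idx (U.comap e.symm.toMonoidHom) j
      (by rw [Subgroup.index_comap_of_surjective _ e.symm.surjective, hU])
    refine eq_top_iff.2 fun x _ => ?_
    have h2 : e x ∈ U.comap e.symm.toMonoidHom := h1 ▸ Subgroup.mem_top _
    simpa using h2
  out β k hβ := by
    obtain ⟨s, hs⟩ := h.out (MulAut.congr e β) k (by rw [← map_pow, hβ, map_one])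
    refine ⟨e.symm s, fun x => e.injective ?_⟩
    simpa using hs (e x)

variable {G : Type*} [Group G] [Finite G] {p : ℕ}

theorem mul_card_dvd_of_lt [hp : Fact p.Prime] {A B : Subgroup G} (hB : IsPGroup p B) (h : A ≤ B)
    {x : G} (hx : x ∈ B) (hxA : x ∉ A) : p * Nat.card A ∣ Nat.card B := by
  obtain ⟨k, hk⟩ := hB.index (A.subgroupOf B)
  have h1 := (A.subgroupOf B).card_mul_index
  rw [Nat.card_congr (Subgroup.subgroupOfEquivOfLe h).toEquiv, hk] at h1
  rcases k with _ | k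
  · have : A.subgroupOf B = ⊤ := Subgroup.index_eq_one.1 hk
    exact absurd (show (⟨x, hx⟩ : B) ∈ A.subgroupOf B from this ▸ Subgroup.mem_top _) hxA
  · exact ⟨p ^ k, by rw [← h1]; ring⟩

theorem card_mul_card_le {A C P : Subgroup G} (hA : A ≤ P) (hC : C ≤ P) (h : A ⊓ C = ⊥) :
    Nat.card A * Nat.card C ≤ Nat.card P := by
  have h1 := (A.subgroupOf P).card_mul_index
  rw [Nat.card_congr (Subgroup.subgroupOfEquivOfLe hA).toEquiv] at h1
  rw [← h1, ← Subgroup.relIndex_bot_left C, ← h, Subgroup.inf_relIndex_right]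
  exact Nat.mul_le_mul_left _
    (Subgroup.relIndex_le_of_le_right hC Subgroup.index_ne_zero_of_finite)

variable {M T : Subgroup G}

theorem relIndex_dvd [M.Normal] (hT : Factor M T) (U : Subgroup G) : U.relIndex T ∣ U.index := by
  have : (T.subgroupOf M).Normal := (Subgroup.normal_subgroupOf_iff hT.le).2
    fun t n ht hn => hT.conj n hn t ht
  rw [← Subgroup.relIndex_subgroupOf hT.le]
  exact (Char.relIndex_dvd_index_of_normal_right' _ _).trans
    (Char.relIndex_dvd_index_of_normal_right' U M)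

/-- The Sylow subgroup `P ∩ T` of the factor `T`. -/
theorem exists_sylow [M.Normal] [Fact p.Prime] (hT : Factor M T) (P : Sylow p G) :
    ∃ R : Sylow p T, (R : Subgroup T) = (P : Subgroup G).subgroupOf T :=
  ⟨(P.isPGroup'.comap_subtype).toSylow fun h => P.not_dvd_index (h.trans (relIndex_dvd hT _)), rfl⟩

omit [Finite G] in
theorem smul_eq_of_mem (hT : Factor M T) {n : G} (hn : n ∈ M) : MulAut.conj n • T = T := by
  ext t
  rw [mem_cj]
  exact ⟨fun h => by simpa [mul_assoc] using hT.conj n hn _ h, hT.conj' hn⟩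

omit [Finite G] in
theorem conj_mem_cj {g t : G} (ht : t ∈ T) : g * t * g⁻¹ ∈ MulAut.conj g • T := by
  rw [mem_cj]; simpa [mul_assoc] using ht

theorem moved (hD : Data G) (hM : MinN M) (hna : ¬ IsMulCommutative M) (hT : Factor M T)
    [hp : Fact p.Prime] (h2 : p ≠ 2) (hd : p ∣ Nat.card T) (P : Sylow p G) {y : G}
    (hy : y ∈ (P : Subgroup G)) : MulAut.conj y • T = T := by
  have := hM.normal
  by_contra hne
  let N : Subgroup G := (MulAction.stabilizer (MulAut G) T).comap MulAut.conj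
  have hN : ∀ g, g ∈ N ↔ MulAut.conj g • T = T := fun g => Iff.rfl
  have hpow : ∀ d, 0 < d → d < p → y ^ d ∉ N := fun d hd0 hdp h => by
    refine hne ((hN y).1 (Subgroup.zpowers_le.2 h (mem_zpowers_pow_iff.2 ?_)))
    obtain ⟨k, hk⟩ := IsPGroup.iff_orderOf.1 P.isPGroup' ⟨y, hy⟩
    rw [← Subgroup.orderOf_coe] at hk
    rw [hk]
    exact ((Nat.coprime_of_lt_prime hd0.ne' hdp hp.out).symm).pow_right k
  let S : ℕ → Subgroup G := fun i => MulAut.conj (y ^ i) • T
  have hS : ∀ i, Factor M (S i) := fun i => hT.smul _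
  have hS0 : S 0 = T := by simp [S]
  have hlt : ∀ i j, i < j → j < p → S i ≠ S j := fun i j hij hj e => by
    refine hpow (j - i) (by omega) (by omega) ((hN _).2 ?_)
    have e' : MulAut.conj (y ^ i) • T = MulAut.conj (y ^ i) • MulAut.conj (y ^ (j - i)) • T := by
      rw [← mul_smul, ← map_mul, ← pow_add, Nat.add_sub_cancel' hij.le]; exact e
    exact (MulAction.injective _ e').symm
  have hdis : ∀ i j, i ≠ j → i < p → j < p → S i ≠ S j := fun i j hij hi hj =>
    (lt_or_gt_of_ne hij).elim (fun h => hlt i j h hj) fun h => (hlt j i h hi).symm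
  obtain ⟨R, hR⟩ := exists_sylow hT P
  obtain ⟨⟨x, hxT⟩, hxR, hx1⟩ := ((R : Subgroup T).bot_or_exists_ne_one).resolve_left
    (R.ne_bot_of_dvd_card hd)
  have hxP : x ∈ (P : Subgroup G) := by rw [hR] at hxR; exact hxR
  have hx1' : x ≠ 1 := fun e => hx1 (Subtype.ext e)
  let z : ℕ → G := fun i => y ^ i * x * (y ^ i)⁻¹
  have hzS : ∀ i, z i ∈ S i := fun i => conj_mem_cj hxT
  have hzP : ∀ i, z i ∈ (P : Subgroup G) := fun i => Subgroup.mul_mem _
    (Subgroup.mul_mem _ (Subgroup.pow_mem _ hy i) hxP) (Subgroup.inv_mem _ (Subgroup.pow_mem _ hy i))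
  have hz1 : ∀ i, z i ≠ 1 := fun i e => hx1' (eq_one_of_conj e)
  let C : ℕ → Subgroup G := fun i => Subgroup.centralizer (S i : Set G)
  have hzC : ∀ i, z i ∉ C i := fun i h => hz1 i ((hS i).eq_one_of_cent hM hna (hzS i)
    fun s hs => (Subgroup.mem_centralizer_iff.1 h s hs).symm)
  have hSC : ∀ i j, i ≠ j → i < p → j < p → S i ≤ C j := fun i j hij hi hj a ha =>
    Subgroup.mem_centralizer_iff.2 fun s hs => (hS j).comm (hS i) (hdis j i hij.symm hj hi) hs ha
  have h3 : 3 ≤ p := by have := hp.out.two_le; omega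
  have hCN : C 0 ≤ N := fun c hc => by
    have hc' : ∀ t ∈ T, c⁻¹ * t * c = t := fun t ht => by
      rw [mul_assoc, Subgroup.mem_centralizer_iff.1 hc t (hS0.symm ▸ ht)]; group
    rw [hN]
    ext t
    rw [mem_cj]
    refine ⟨fun h => ?_, fun h => by rwa [hc' t h]⟩
    have := hc' _ h
    rw [mul_assoc, mul_assoc, inv_mul_eq_iff_eq_mul, ← mul_assoc c, ← mul_assoc c,
      mul_inv_cancel, one_mul, ← mul_assoc, mul_left_inj] at this
    rwa [← this]
  have hP := P.isPGroup'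
  have d0 := mul_card_dvd_of_lt hP (inf_le_left : (P : Subgroup G) ⊓ N ≤ _) hy
    fun h => hne h.2
  have d1 := mul_card_dvd_of_lt (hP.to_inf_left (K := N)) (inf_le_inf_left _ hCN)
    (x := z 0) ⟨hzP 0, smul_eq_of_mem hT ((hS 0).le (hzS 0))⟩ fun h => hzC 0 h.2
  have d2 := mul_card_dvd_of_lt (hP.to_inf_left (K := C 0))
    (inf_le_left : (P : Subgroup G) ⊓ C 0 ⊓ C 1 ≤ _) (x := z 1)
    ⟨hzP 1, hSC 1 0 (by omega) (by omega) (by omega) (hzS 1)⟩ fun h => hzC 1 h.2
  have d3 := mul_card_dvd_of_lt ((hP.to_inf_left (K := C 0)).to_inf_left (K := C 1))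
    (inf_le_left : (P : Subgroup G) ⊓ C 0 ⊓ C 1 ⊓ C 2 ≤ _) (x := z 2)
    ⟨⟨hzP 2, hSC 2 0 (by omega) (by omega) (by omega) (hzS 2)⟩,
      hSC 2 1 (by omega) (by omega) (by omega) (hzS 2)⟩ fun h => hzC 2 h.2
  have hnab : ¬ ∀ a ∈ (P : Subgroup G), ∀ b ∈ (P : Subgroup G), a * b = b * a := fun h => by
    have e : z 1 = z 0 := by simp [z, h y hy x hxP]
    exact hzC 0 (e ▸ hSC 1 0 (by omega) (by omega) (by omega) (hzS 1))
  have d4 := hD.small p P hnab
  have d23 : p ^ 2 * Nat.card ((P : Subgroup G) ⊓ C 0 ⊓ C 1 ⊓ C 2 : Subgroup G) ∣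
      Nat.card ((P : Subgroup G) ⊓ C 0 : Subgroup G) := by
    rw [sq, mul_assoc]; exact (mul_dvd_mul_left p d3).trans d2
  have d5 : p ^ 4 * Nat.card ((P : Subgroup G) ⊓ C 0 ⊓ C 1 ⊓ C 2 : Subgroup G) ∣ Nat.card P := by
    refine Dvd.dvd.trans ?_ ((mul_dvd_mul_left p d1).trans d0)
    rw [show p ^ 4 = p * (p * p ^ 2) by ring, mul_assoc, mul_assoc]
    exact mul_dvd_mul_left p (mul_dvd_mul_left p d23)
  have hp4 : 0 < p ^ 4 := pow_pos hp.out.pos 4
  have hbot : (P : Subgroup G) ⊓ C 0 ⊓ C 1 ⊓ C 2 = ⊥ := by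
    rw [← Subgroup.card_eq_one, ← Nat.dvd_one, ← Nat.mul_dvd_mul_iff_left hp4, mul_one]
    exact d5.trans d4
  have hcard : Nat.card P = p ^ 4 := Nat.dvd_antisymm d4 ((Dvd.intro _ rfl).trans d5)
  obtain rfl : p = 3 := by
    by_contra h5
    have : z 3 ∈ (P : Subgroup G) ⊓ C 0 ⊓ C 1 ⊓ C 2 :=
      ⟨⟨⟨hzP 3, hSC 3 0 (by omega) (by omega) (by omega) (hzS 3)⟩,
        hSC 3 1 (by omega) (by omega) (by omega) (hzS 3)⟩,
        hSC 3 2 (by omega) (by omega) (by omega) (hzS 3)⟩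
    rw [hbot] at this
    exact hz1 3 this
  obtain ⟨w, hw, hw3, hwS⟩ : ∃ w ∈ (P : Subgroup G), w ^ 3 ≠ 1 ∧
      ∀ i, MulAut.conj w • S i = S (i + 1) := by
    have hyS : ∀ i, MulAut.conj y • S i = S (i + 1) := fun i => by
      simp only [S]
      rw [← mul_smul, ← map_mul, pow_succ']
    by_cases hy3 : y ^ 3 = 1
    · refine ⟨y * x, Subgroup.mul_mem _ hy hxP, fun e => ?_, fun i => by
        rw [map_mul, mul_smul, smul_eq_of_mem (hS i) (hT.le hxT), hyS]⟩
      have e1 : z 1 * z 2 * z 0 = 1 := by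
        have : z 1 * z 2 * z 0 = y * x * (y * x) * (y * (y ^ 3)⁻¹ * x) := by
          simp only [z]; group
        rw [this, hy3, inv_one, mul_one, ← e]
        simp only [pow_succ, pow_zero, one_mul]
      refine hzC 0 ?_
      rw [← inv_eq_of_mul_eq_one_right e1]
      exact Subgroup.inv_mem _ (Subgroup.mul_mem _
        (hSC 1 0 (by omega) (by omega) (by omega) (hzS 1))
        (hSC 2 0 (by omega) (by omega) (by omega) (hzS 2)))
    · exact ⟨y, hy, hy3, hyS⟩
  obtain ⟨c, hc, hcw, hcz⟩ := hD.nosc 3 P hnab hcard w hw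
  have hstep : ∀ i a, a * w = w * a → a ∈ C i → a ∈ C (i + 1) := fun i a ha h =>
    Subgroup.mem_centralizer_iff.2 fun s hs => by
      have hs' : s ∈ MulAut.conj w • S i := (hwS i).symm ▸ hs
      have e := Subgroup.mem_centralizer_iff.1 h _ (mem_cj.1 hs')
      have ha' : w⁻¹ * a = a * w⁻¹ := by rw [inv_mul_eq_iff_eq_mul, ← mul_assoc, ← ha]; group
      rw [mul_assoc, ← ha, ← mul_assoc a, ← mul_assoc a, ← ha', ← mul_assoc, mul_left_inj,
        mul_assoc, mul_assoc, mul_right_inj] at e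
      exact e
  have d6 := card_mul_card_le (inf_le_left : (P : Subgroup G) ⊓ C 0 ≤ _)
    (inf_le_left : (P : Subgroup G) ⊓ Subgroup.centralizer {w} ≤ _) (by
      rw [eq_bot_iff, ← hbot]
      intro a ha
      have e := Subgroup.mem_centralizer_singleton_iff.1 ha.2.2
      exact ⟨⟨ha.1, hstep 0 a e ha.1.2⟩, hstep 1 a e (hstep 0 a e ha.1.2)⟩)
  have d7 := mul_card_dvd_of_lt (hP.to_inf_left (K := Subgroup.centralizer {w}))
    (Subgroup.zpowers_le.2 ⟨hw, Subgroup.mem_centralizer_singleton_iff.2 rfl⟩) (x := c)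
    ⟨hc, Subgroup.mem_centralizer_singleton_iff.2 hcw⟩ hcz
  obtain ⟨k, hk⟩ := IsPGroup.iff_orderOf.1 hP ⟨w, hw⟩
  rw [← Subgroup.orderOf_coe] at hk
  have hk2 : 2 ≤ k := by
    by_contra h
    exact hw3 (orderOf_dvd_iff_pow_eq_one.1 (hk ▸ (pow_dvd_pow 3 (by omega : k ≤ 1))))
  rw [Nat.card_zpowers, hk] at d7
  have d8 := Nat.le_of_dvd Nat.card_pos d7
  have d9 := Nat.le_of_dvd Nat.card_pos ((Dvd.intro _ rfl).trans d23)
  have d10 : 3 ^ 2 ≤ 3 ^ k := Nat.pow_le_pow_right (by omega) hk2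
  rw [hcard] at d6
  nlinarith

theorem false_of_good (hD : Data G) (hM : MinN M) (hna : ¬ IsMulCommutative M)
    (hC : ∀ g : G, (∀ m ∈ M, g * m = m * g) → g = 1) (hT : Factor M T) (hg : Good p T) : False := by
  classical
  have := hM.normal
  have hp := Fact.mk hg.prime
  obtain ⟨P⟩ : Nonempty (Sylow p G) := inferInstance
  have hgc : ∀ g : G, Good p (MulAut.conj g • T : Subgroup G) := fun g =>
    hg.of_equiv (Subgroup.equivSMul (MulAut.conj g) T).symm
  have dec : ∀ T' : Subgroup G, Factor M T' → Good p T' → ∀ y ∈ (P : Subgroup G),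
      ∃ s ∈ T', ∀ t ∈ T', s⁻¹ * y * t = t * (s⁻¹ * y) := fun T' hT' hg' y hy => by
    have hm := moved hD hM hna hT' hg.ne2 hg'.dvd P hy
    have hn : y ∈ Subgroup.normalizer (T' : Set G) :=
      Subgroup.mem_normalizer_fintype fun t ht => hm ▸ conj_mem_cj ht
    obtain ⟨k, hk⟩ := P.isPGroup' ⟨y, hy⟩
    obtain ⟨s, hs⟩ := hg'.out (T'.normalizerMonoidHom ⟨y, hn⟩) k (by
      have : (⟨y, hn⟩ : Subgroup.normalizer (T' : Set G)) ^ p ^ k = 1 :=
        Subtype.ext (congrArg Subtype.val hk :)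
      rw [← map_pow, this, map_one])
    refine ⟨s, s.2, fun t ht => ?_⟩
    have e : y * t * y⁻¹ = s * t * (s : G)⁻¹ := congrArg Subtype.val (hs ⟨t, ht⟩)
    rw [mul_assoc, mul_inv_eq_iff_eq_mul.1 e]
    group
  have hPM : (P : Subgroup G) ≤ M := fun y hy => by
    have key : ∀ F : Finset G, ∃ m ∈ ⨆ g ∈ F, MulAut.conj g • T,
        ∀ g ∈ F, ∀ t ∈ MulAut.conj g • T, m⁻¹ * y * t = t * (m⁻¹ * y) := by
      intro F
      induction F using Finset.induction_on with
      | empty => exact ⟨1, Subgroup.one_mem _, by simp⟩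
      | insert g F hgF ih =>
        obtain ⟨m, hm, hmc⟩ := ih
        rw [Finset.iSup_insert]
        by_cases hex : ∃ g' ∈ F, MulAut.conj g' • T = MulAut.conj g • T
        · obtain ⟨g', hg', e⟩ := hex
          refine ⟨m, Subgroup.mem_sup_right hm, fun a ha => ?_⟩
          rcases Finset.mem_insert.1 ha with rfl | ha
          · exact e ▸ hmc g' hg'
          · exact hmc a ha
        · push Not at hex
          obtain ⟨s, hs, hsc⟩ := dec _ (hT.smul g) (hgc g) y hy
          have hmT : m ∈ Subgroup.centralizer ((MulAut.conj g • T : Subgroup G) : Set G) := by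
            refine (iSup₂_le fun a ha u hu => Subgroup.mem_centralizer_iff.2 fun t ht => ?_ :
              (⨆ g ∈ F, MulAut.conj g • T) ≤ _) hm
            exact (hT.smul g).comm (hT.smul a) (hex a ha).symm ht hu
          have hms := Subgroup.mem_centralizer_iff.1 hmT s hs
          refine ⟨m * s, Subgroup.mul_mem _ (Subgroup.mem_sup_right hm) (Subgroup.mem_sup_left hs),
            fun a ha t ht => ?_⟩
          rcases Finset.mem_insert.1 ha with rfl | ha
          · have e1 := Subgroup.mem_centralizer_iff.1 (Subgroup.inv_mem _ hmT) t ht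
            rw [← hms, mul_inv_rev, mul_assoc m⁻¹, mul_assoc m⁻¹, hsc t ht, ← mul_assoc, ← e1,
              mul_assoc]
          · have e1 := (hT.smul g).comm (hT.smul a) (hex a ha).symm (Subgroup.inv_mem _ hs) ht
            rw [mul_inv_rev, mul_assoc s⁻¹, mul_assoc s⁻¹, hmc a ha t ht, ← mul_assoc, e1,
              mul_assoc]
    have := Fintype.ofFinite G
    obtain ⟨m, hm, hmc⟩ := key Finset.univ
    have hmM : m ∈ M := (iSup₂_le fun a _ => (hT.smul a).le : (⨆ g ∈ _, _) ≤ M) hm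
    have e := hC (m⁻¹ * y) fun u hu => (Subgroup.mem_centralizer_singleton_iff.1
      (hT.le_of_conj_mem hM (X := Subgroup.centralizer {m⁻¹ * y}) (fun g t ht =>
        Subgroup.mem_centralizer_singleton_iff.2
          (hmc g (Finset.mem_univ g) _ (conj_mem_cj ht)).symm) hu)).symm
    rwa [← inv_mul_eq_one.1 e]
  have hU : ∀ (U : Subgroup G) (j : ℕ), U.index = p ^ j → U = ⊤ := fun U j hj => by
    have hMU : M ≤ U := hT.le_of_conj_mem hM fun g t ht => by
      obtain ⟨i, -, hi⟩ := (Nat.dvd_prime_pow hp.out).1 (hj ▸ relIndex_dvd (hT.smul g) U)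
      exact Subgroup.subgroupOf_eq_top.1 ((hgc g).idx _ i hi) (conj_mem_cj ht)
    rcases j with _ | j
    · exact Subgroup.index_eq_one.1 hj
    · exact absurd ((hj ▸ dvd_pow_self p j.succ_ne_zero).trans
        (Subgroup.index_dvd_of_le (hPM.trans hMU))) P.not_dvd_index
  obtain ⟨R, hR⟩ := exists_sylow hT P
  have hRP : ∀ {t : T}, t ∈ (R : Subgroup T) ↔ (t : G) ∈ (P : Subgroup G) := by
    intro t; rw [hR]; rfl
  obtain ⟨⟨x, hx⟩, hgen⟩ := (hg.cyc _ R.isPGroup').exists_generator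
  have hxz : ∀ t ∈ (R : Subgroup T), (t : G) ∈ Subgroup.zpowers (x : G) := fun t ht => by
    obtain ⟨k, hk⟩ := hgen ⟨t, ht⟩
    exact ⟨k, by simpa using congrArg (fun a : (R : Subgroup T) => ((a : T) : G)) hk⟩
  have hdec : ∀ y ∈ (P : Subgroup G), ∃ a ∈ Subgroup.zpowers (x : G), ∃ c, y = a * c ∧
      ∀ t ∈ T, c * t = t * c := fun y hy => by
    obtain ⟨s, hs, hsc⟩ := dec T hT hg y hy
    refine ⟨s, hxz ⟨s, hs⟩ ?_, s⁻¹ * y, by group, hsc⟩
    obtain ⟨k, hk⟩ := P.isPGroup' ⟨y, hy⟩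
    have hk' : y ^ p ^ k = 1 := congrArg Subtype.val hk
    have hcomm : Commute s (s⁻¹ * y) := (hsc s hs).symm
    have h1 : s ^ p ^ k = 1 := by
      refine hT.eq_one_of_cent hM hna (T.pow_mem hs _) fun t ht => ?_
      have e := hcomm.mul_pow (p ^ k)
      rw [mul_inv_cancel_left, hk'] at e
      rw [eq_inv_of_mul_eq_one_left e.symm]
      exact ((show Commute (s⁻¹ * y) t from hsc t ht).pow_left _).inv_left.eq
    have h2 : IsPGroup p (Subgroup.zpowers (⟨s, hs⟩ : T)) := by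
      rintro ⟨_, l, rfl⟩
      refine ⟨k, Subtype.ext (Subtype.ext ?_)⟩
      simp only [SubmonoidClass.coe_pow, SubgroupClass.coe_zpow, OneMemClass.coe_one]
      rw [← zpow_natCast, ← zpow_mul, mul_comm, zpow_mul, zpow_natCast, h1, one_zpow]
    have h3 : (⟨s, hs⟩ : T) ∈ Subgroup.normalizer ((R : Subgroup T) : Set T) :=
      Subgroup.mem_normalizer_fintype fun u hu => hRP.2 (by
        have e : s * u * s⁻¹ = y * u * y⁻¹ := by
          rw [eq_mul_inv_iff_mul_eq, mul_assoc, mul_assoc, ← hsc u u.2]; group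
        change s * u * s⁻¹ ∈ _
        rw [e]
        exact Subgroup.mul_mem _ (Subgroup.mul_mem _ hy (hRP.1 hu)) (Subgroup.inv_mem _ hy))
    exact ((h2.inf_normalizer_sylow R).le ⟨Subgroup.mem_zpowers _, h3⟩).2
  have hburn : Subgroup.normalizer ((R : Subgroup T) : Set T) ≤
      Subgroup.centralizer ((R : Subgroup T) : Set T) := fun n hn => by
    have e := hD.kl p P hU x (hRP.1 hx) (fun y hy => by
      obtain ⟨_, ⟨k, rfl⟩, c, rfl, hc⟩ := hdec y hy
      rw [mul_assoc, hc x x.2, ← mul_assoc, ← mul_assoc]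
      exact congrArg (· * c) (Commute.zpow_left (Commute.refl (x : G)) k).eq) n
      (hxz _ ((Subgroup.mem_normalizer_iff.1 hn x).1 hx)) fun y hy => by
        obtain ⟨a, ha, c, e, hc⟩ := hdec y hy
        exact ⟨a, ha, c, e, (hc n n.2).symm⟩
    refine Subgroup.mem_centralizer_iff.2 fun t ht => Subtype.ext ?_
    obtain ⟨k, hk⟩ := hxz t ht
    change (t : G) * n = n * t
    rw [← hk]
    exact (Commute.zpow_right e k).eq.symm
  have h1 := (MonoidHom.ker_transferSylow_isComplement' R hburn).symm.index_eq_card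
  obtain ⟨j, hj⟩ := IsPGroup.iff_card.1 R.isPGroup'
  rw [hg.idx _ j (h1.trans hj), Subgroup.index_top] at h1
  exact R.ne_bot_of_dvd_card hg.dvd (Subgroup.card_eq_one.1 h1.symm)

end Cfsg.Lib.Gag
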